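import Cfsg.Agent.H960.KGV.Defs
import Cfsg.Agent.S2557
import Cfsg.Agent.S0245
import Cfsg.Agent.S0044
import Cfsg.Agent.S0009
import Cfsg.Agent.OrdDiv.Main
import Cfsg.Agent.Lib.Cores
import Cfsg.Agent.H541.AutFrattini
import Cfsg.Agent.SmallSimple.BurnsideNC

/-!
# Class numbers of subgroups of `Sp_6(2)`, `Sp_8(2)`, `Sp_10(2)` (tasks 2022, 2023 of TEAM KGV)

* `sq_le` : `k(Y)^2 ≤ |X| k(X)`;
* `sp6_any`, `sp6_seven`, `sp8_five`, `sp10_three`;
* `card_le_cores` : the order of a solvable group in terms of its `p`-cores;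
* `sp6_three`, `sp8_three` : the `3'`-groups (with the order table and the classification as hypotheses).
-/

set_option autoImplicit false

namespace Cfsg.Agent.H192.KSp

open Cfsg Subgroup Cfsg.Agent.H540.ClassNum Cfsg.Agent.H960.KGV Cfsg.Agent.OrdDiv

/-- the symplectic group over the field with two elements -/
abbrev Sp (n : ℕ) : Type := Matrix.symplecticGroup (Fin n) (ZMod 2)

instance (n : ℕ) : Finite (Sp n) := Subtype.finite

theorem card3 : Nat.card (Sp 3) = 1451520 := by
  rw [Cfsg.Agent.S0245.result (F := ZMod 2) (q := 2) (ZMod.card 2) 3]; decide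

theorem card4 : Nat.card (Sp 4) = 47377612800 := by
  rw [Cfsg.Agent.S0245.result (F := ZMod 2) (q := 2) (ZMod.card 2) 4]; decide

theorem card5 : Nat.card (Sp 5) = 24815256521932800 := by
  rw [Cfsg.Agent.S0245.result (F := ZMod 2) (q := 2) (ZMod.card 2) 5]; decide

/-- `k(Y)^2 ≤ |X| k(X)` -/
theorem sq_le {X : Type*} [Group X] [Finite X] (Y : Subgroup X) :
    Nat.card (ConjClasses Y) ^ 2 ≤ Nat.card X * Nat.card (ConjClasses X) := by
  have h1 := le_index_mul Y
  have h2 := card_conjClasses_le_card (G := Y)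
  have h3 := Y.card_mul_index
  calc Nat.card (ConjClasses Y) ^ 2 = Nat.card (ConjClasses Y) * Nat.card (ConjClasses Y) := sq _
    _ ≤ Nat.card Y * (Y.index * Nat.card (ConjClasses X)) := Nat.mul_le_mul h2 h1
    _ = _ := by rw [← mul_assoc, h3]

theorem k_sp (n : ℕ) (hn : 1 ≤ n) : 5 * Nat.card (ConjClasses (Sp n)) ≤ 76 * 2 ^ n := by
  have h := (Cfsg.Agent.S2557.result (F := ZMod 2) (by rw [ZMod.card]; exact even_two) n hn).2
  rwa [ZMod.card] at h

theorem k_le {n c b : ℕ} (hn : 1 ≤ n) (hc : Nat.card (Sp n) = c) (hb : 76 * 2 ^ n * c ≤ 5 * b ^ 2)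
    (R : Subgroup (Sp n)) : Nat.card (ConjClasses R) ≤ b := by
  have h1 := sq_le R
  have h2 := k_sp n hn
  rw [hc] at h1
  by_contra h
  push Not at h
  have h3 : b ^ 2 < Nat.card (ConjClasses R) ^ 2 := Nat.pow_lt_pow_left h (by norm_num)
  have h4 : 5 * (c * Nat.card (ConjClasses (Sp n))) ≤ 76 * 2 ^ n * c := by
    calc 5 * (c * Nat.card (ConjClasses (Sp n))) = 5 * Nat.card (ConjClasses (Sp n)) * c := by ring
      _ ≤ _ := Nat.mul_le_mul_right _ h2
  omega

theorem sp6_any' (R : Subgroup (Sp 3)) : Nat.card (ConjClasses R) ≤ 13287 :=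
  k_le (by norm_num) card3 (by norm_num) R

theorem sp6_any (R : Subgroup (Matrix.symplecticGroup (Fin 3) (ZMod 2))) :
    Nat.card (ConjClasses R) ≤ 329782 :=
  (sp6_any' R).trans (by norm_num)

theorem sp6_seven (R : Subgroup (Matrix.symplecticGroup (Fin 3) (ZMod 2)))
    (_h : ¬ 7 ∣ Nat.card R) : Nat.card (ConjClasses R) ≤ 14781 :=
  (sp6_any' R).trans (by norm_num)

theorem sp8_five (R : Subgroup (Matrix.symplecticGroup (Fin 4) (ZMod 2))) (_h : ¬ 5 ∣ Nat.card R)
    (_h2 : PCoreTriv 2 R) : Nat.card (ConjClasses R) ≤ 148000000 :=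
  k_le (by norm_num) card4 (by norm_num) R

theorem sp10_three (R : Subgroup (Matrix.symplecticGroup (Fin 5) (ZMod 2))) (_h : ¬ 3 ∣ Nat.card R)
    (_h2 : PCoreTriv 2 R) : Nat.card (ConjClasses R) ≤ 900000000000 :=
  k_le (by norm_num) card5 (by norm_num) R

/-! ### solvability -/

/-- if no nonabelian simple group has order dividing `N`, groups of order dividing `N` are solvable -/
theorem solvable_of {N : ℕ} (h : ∀ (T : Type) [Group T] [Finite T] [IsSimpleGroup T],
    (∃ a b : T, a * b ≠ b * a) → Nat.card T ∣ N → False) :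
    ∀ (n : ℕ) (G : Type) [Group G] [Finite G], Nat.card G = n → Nat.card G ∣ N →
      Group.IsSolvable G := by
  intro n
  induction n using Nat.strong_induction_on with
  | _ n ih =>
    intro G _ _ hn hd
    rcases subsingleton_or_nontrivial G with hG | hG
    · exact Group.isSolvable_of_comm fun a b => Subsingleton.elim _ _
    by_cases hs : IsSimpleGroup G
    · by_cases hc : ∃ a b : G, a * b ≠ b * a
      · exact (h G hc hd).elim
      · push Not at hc
        exact Group.isSolvable_of_comm hc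
    · have h1 : ∃ K : Subgroup G, K.Normal ∧ K ≠ ⊥ ∧ K ≠ ⊤ := by
        by_contra hcon
        apply hs
        refine ⟨fun K hK => ?_⟩
        by_contra h2
        push Not at h2
        exact hcon ⟨K, hK, h2.1, h2.2⟩
      obtain ⟨K, hK, h2, h3⟩ := h1
      have h4 : Nat.card K * K.index = Nat.card G := K.card_mul_index
      have h5 : K.index ≠ 1 := fun h => h3 (Subgroup.index_eq_one.1 h)
      have h6 : Nat.card K ≠ 1 := fun h => h2 (Subgroup.card_eq_one.1 h)
      have h7 : 0 < Nat.card K := Nat.card_pos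
      have h8 : 0 < Nat.card G := Nat.card_pos
      have h9 : K.index ≠ 0 := Subgroup.index_ne_zero_of_finite
      have h10 : Nat.card K < n := by
        rw [← hn, ← h4]
        exact lt_mul_of_one_lt_right h7 (by omega)
      have h11 : Nat.card (G ⧸ K) < n := by
        rw [← hn, ← h4, ← Subgroup.index_eq_card]
        exact lt_mul_of_one_lt_left (by omega) (by omega)
      have h12 := ih _ h10 K rfl ((Subgroup.card_subgroup_dvd_card K).trans hd)
      have h13 := ih _ h11 (G ⧸ K) rfl ((Subgroup.card_quotient_dvd_card K).trans hd)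
      refine Group.isSolvable_of_ker_le_range K.subtype (QuotientGroup.mk' K) ?_
      rw [QuotientGroup.ker_mk', K.range_subtype]

/-- the version with the order table -/
theorem solvable_of_table (TB : OrderTable.{0})
    (hS : ∀ (T : Type) [Group T] [Finite T] [IsSimpleGroup T], IsKnownSimple' T)
    {l : List (ℕ × ℕ)} {N : ℕ} (hv : valid l N = true) (hc : cands l N = [])
    (G : Type) [Group G] [Finite G] (hd : Nat.card G ∣ N) : Group.IsSolvable G := by
  refine solvable_of (N := N) ?_ _ G rfl hd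
  intro T _ _ _ hna hT
  obtain ⟨g, hg, -⟩ := exists_real TB (hS T) (by push Not; exact hna) hv hT
  rw [hc] at hg
  exact List.not_mem_nil hg

/-! ### the order of a solvable group -/

theorem index_centralizer_dvd {R : Type*} [Group R] [Finite R] (N : Subgroup R) [N.Normal] :
    (centralizer (N : Set R)).index ∣ Nat.card (MulAut N) := by
  have h : (MulAut.conjNormal (H := N)).ker = centralizer (N : Set R) := by
    ext g
    rw [MonoidHom.mem_ker, mem_centralizer_iff]
    constructor
    · intro h x hx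
      have h1 := congrArg (fun φ : MulAut N => ((φ ⟨x, hx⟩ : N) : R)) h
      simp only [MulAut.conjNormal_apply, MulAut.one_apply] at h1
      calc x * g = (g * x * g⁻¹) * g := by rw [h1]
        _ = g * x := by group
    · intro h
      ext x
      simp only [MulAut.conjNormal_apply, MulAut.one_apply]
      rw [← h x x.2]
      group
  rw [← h, Subgroup.index_ker]
  exact Subgroup.card_subgroup_dvd_card _

theorem card_le_cores {R : Type*} [Group R] [Finite R] [Group.IsSolvable R] (S : Finset ℕ)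
    (hS : ∀ p : ℕ, p.Prime → p ∉ S → pCore p R = ⊥) :
    Nat.card R ≤ ∏ p ∈ S, Nat.card (pCore p R) * (centralizer (pCore p R : Set R)).index := by
  classical
  have key : ∀ S : Finset ℕ, ∃ A B : Subgroup R, A.Normal ∧ (∀ p ∈ S, pCore p R ≤ A) ∧
      Nat.card A ≤ ∏ p ∈ S, Nat.card (pCore p R) ∧
      (∀ p ∈ S, B ≤ centralizer (pCore p R : Set R)) ∧
      B.index ≤ ∏ p ∈ S, (centralizer (pCore p R : Set R)).index := by
    intro S
    induction S using Finset.induction_on with
    | empty =>
      refine ⟨⊥, ⊤, inferInstance, by simp, by simp, by simp, by simp⟩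
    | insert a S ha ih =>
      obtain ⟨A, B, h1, h2, h3, h4, h5⟩ := ih
      have hn : (pCore a R).Normal := Cfsg.Agent.Lib.Cores.pCore_normal a
      refine ⟨pCore a R ⊔ A, centralizer (pCore a R : Set R) ⊓ B, inferInstance, ?_, ?_, ?_, ?_⟩
      · intro p hp
        rcases Finset.mem_insert.1 hp with rfl | hp
        · exact le_sup_left
        · exact (h2 p hp).trans le_sup_right
      · rw [Finset.prod_insert ha]
        refine (Nat.le_of_dvd (Nat.mul_pos Nat.card_pos Nat.card_pos)
          (Cfsg.Agent.Lib.Cores.card_sup_dvd _ _ hn)).trans (Nat.mul_le_mul_left _ h3)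
      · intro p hp
        rcases Finset.mem_insert.1 hp with rfl | hp
        · exact inf_le_left
        · exact inf_le_right.trans (h4 p hp)
      · rw [Finset.prod_insert ha]
        exact Subgroup.index_inf_le.trans (Nat.mul_le_mul_left _ h5)
  obtain ⟨A, B, h1, h2, h3, h4, h5⟩ := key S
  have hF : fittingSubgroup R ≤ A := by
    rw [S0009.result]
    refine iSup_le fun p => ?_
    by_cases hp : (p : ℕ) ∈ S
    · exact h2 p hp
    · rw [hS p p.2 hp]
      exact bot_le
  have hB : B ≤ centralizer (fittingSubgroup R : Set R) := by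
    rw [Subgroup.le_centralizer_iff, S0009.result]
    refine iSup_le fun p => ?_
    by_cases hp : (p : ℕ) ∈ S
    · rw [Subgroup.le_centralizer_iff]
      exact h4 p hp
    · rw [hS p p.2 hp]
      exact bot_le
  have hBA : B ≤ A := (hB.trans S0044.result).trans hF
  calc Nat.card R = Nat.card B * B.index := B.card_mul_index.symm
    _ ≤ (∏ p ∈ S, Nat.card (pCore p R)) * ∏ p ∈ S, (centralizer (pCore p R : Set R)).index :=
        Nat.mul_le_mul ((Subgroup.card_le_of_le hBA).trans h3) h5
    _ = _ := Finset.prod_mul_distrib.symm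

/-! ### the natural module -/

/-- the natural module -/
abbrev V (n : ℕ) : Type := Fin n ⊕ Fin n → ZMod 2

theorem card_V (n : ℕ) : Nat.card (V n) = 2 ^ (2 * n) := by
  rw [Nat.card_eq_fintype_card, Fintype.card_fun, ZMod.card, Fintype.card_sum, Fintype.card_fin,
    two_mul]

/-- the action -/
def act {n : ℕ} (x : Sp n) (v : V n) : V n := (x : Matrix (Fin n ⊕ Fin n) (Fin n ⊕ Fin n) (ZMod 2)).mulVec v

theorem act_one {n : ℕ} (v : V n) : act 1 v = v := Matrix.one_mulVec v

theorem act_mul {n : ℕ} (x y : Sp n) (v : V n) : act (x * y) v = act x (act y v) :=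
  (Matrix.mulVec_mulVec _ _ _).symm

theorem act_add {n : ℕ} (x : Sp n) (v w : V n) : act x (v + w) = act x v + act x w :=
  Matrix.mulVec_add _ _ _

theorem act_zero {n : ℕ} (x : Sp n) : act x 0 = 0 := Matrix.mulVec_zero _

theorem act_neg {n : ℕ} (x : Sp n) (v : V n) : act x (-v) = -act x v := Matrix.mulVec_neg _ _

theorem act_inj {n : ℕ} (x : Sp n) (v w : V n) (h : act x v = act x w) : v = w := by
  have := congrArg (act x⁻¹) h
  rwa [← act_mul, ← act_mul, inv_mul_cancel, act_one, act_one] at this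

/-- the fixed points -/
def fix {n : ℕ} (x : Sp n) : AddSubgroup (V n) where
  carrier := {v | act x v = v}
  zero_mem' := act_zero x
  add_mem' := by
    intro a b ha hb
    show act x (a + b) = a + b
    rw [act_add, ha, hb]
  neg_mem' := by
    intro a ha
    show act x (-a) = -a
    rw [act_neg, ha]

theorem mem_fix {n : ℕ} {x : Sp n} {v : V n} : v ∈ fix x ↔ act x v = v := Iff.rfl

theorem eq_one_of_fix {n : ℕ} {x : Sp n} (h : ∀ v, act x v = v) : x = 1 := by
  apply Subtype.ext
  apply Matrix.mulVec_injective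
  funext v
  have h1 : act x v = act 1 v := (h v).trans (act_one v).symm
  exact h1

theorem card_two {n : ℕ} (W : AddSubgroup (V n)) : ∃ d, d ≤ 2 * n ∧ Nat.card W = 2 ^ d := by
  have h := AddSubgroup.card_addSubgroup_dvd_card W
  rw [card_V] at h
  exact (Nat.dvd_prime_pow Nat.prime_two).1 h

theorem eq_top_of_card {n : ℕ} {W : AddSubgroup (V n)} (h : Nat.card W = 2 ^ (2 * n)) : W = ⊤ := by
  rw [← card_V] at h
  exact AddSubgroup.eq_top_of_card_eq _ h

theorem modEq {n : ℕ} {x : Sp n} {p : ℕ} [Fact p.Prime] (hx : x ^ p = 1) (W : AddSubgroup (V n))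
    (hW : ∀ v ∈ W, act x v ∈ W) :
    Nat.card W ≡ Nat.card (W ⊓ fix x : AddSubgroup (V n)) [MOD p] := by
  classical
  let f : Function.End W := fun v => ⟨act x v, hW v v.2⟩
  have hf : ∀ (k : ℕ) (v : W), (((f ^ k : Function.End W) v : W) : V n) = act (x ^ k) v := by
    intro k
    induction k with
    | zero => intro v; rw [pow_zero, pow_zero, act_one]; rfl
    | succ k ih =>
      intro v
      rw [pow_succ', pow_succ', act_mul, ← ih]
      rfl
  have h1 : f ^ p ^ 1 = 1 := by
    funext v
    apply Subtype.ext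
    rw [hf, pow_one, hx, act_one]
    rfl
  have h2 := Equiv.Perm.card_fixedPoints_modEq h1
  rw [← Nat.card_eq_fintype_card, ← Nat.card_eq_fintype_card] at h2
  have h3 : Nat.card (Function.fixedPoints f) = Nat.card (W ⊓ fix x : AddSubgroup (V n)) := by
    apply Nat.card_congr
    exact
      { toFun := fun v => ⟨v.1.1, v.1.2, congrArg Subtype.val v.2⟩
        invFun := fun v => ⟨⟨v.1, v.2.1⟩, Subtype.ext v.2.2⟩
        left_inv := fun v => rfl
        right_inv := fun v => rfl }
  rwa [h3] at h2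

theorem modEq_top {n : ℕ} {x : Sp n} {p : ℕ} [Fact p.Prime] (hx : x ^ p = 1) :
    2 ^ (2 * n) ≡ Nat.card (fix x) [MOD p] := by
  have h := modEq hx ⊤ (fun _ _ => trivial)
  have h1 : Nat.card (⊤ : AddSubgroup (V n)) = 2 ^ (2 * n) := by
    rw [← card_V]; exact AddSubgroup.card_top
  rwa [h1, top_inf_eq] at h

theorem fix_inv {n : ℕ} {x y : Sp n} (h : Commute x y) : ∀ v ∈ fix y, act x v ∈ fix y := by
  intro v hv
  rw [mem_fix, ← act_mul, ← h.eq, act_mul, mem_fix.1 hv]

theorem card_fix_lt {n : ℕ} {x : Sp n} (hx : x ≠ 1) : Nat.card (fix x) ≠ 2 ^ (2 * n) := by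
  intro h
  have h1 := eq_top_of_card h
  apply hx
  refine eq_one_of_fix fun v => ?_
  have : v ∈ fix x := by rw [h1]; trivial
  exact this

theorem ne_one_of_order {G : Type*} [Group G] {x : G} {p : ℕ} (hp : p.Prime) (hx : orderOf x = p) :
    x ≠ 1 := by
  rintro rfl
  rw [orderOf_one] at hx
  exact hp.one_lt.ne hx

/-- in `Sp_6(2)` no element of order 7 commutes with an element of order 5 -/
theorem no35 {x y : Sp 3} (hx : orderOf x = 7) (hy : orderOf y = 5) (h : Commute x y) : False := by
  have f5 : Fact (Nat.Prime 5) := ⟨by norm_num⟩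
  have f7 : Fact (Nat.Prime 7) := ⟨by norm_num⟩
  have x7 : x ^ 7 = 1 := by rw [← hx]; exact pow_orderOf_eq_one x
  have y5 : y ^ 5 = 1 := by rw [← hy]; exact pow_orderOf_eq_one y
  have hx1 := card_fix_lt (ne_one_of_order f7.out hx)
  have hy1 := card_fix_lt (ne_one_of_order f5.out hy)
  obtain ⟨a, ha, ha'⟩ := card_two (fix x)
  obtain ⟨b, hb, hb'⟩ := card_two (fix y)
  obtain ⟨c, hc, hc'⟩ := card_two (fix y ⊓ fix x)
  have h1 := modEq_top x7
  have h2 := modEq_top y5
  have h3 := modEq x7 (fix y) (fix_inv h)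
  have h4 := modEq y5 (fix x) (fix_inv h.symm)
  rw [inf_comm] at h4
  rw [ha'] at h1 hx1 h4
  rw [hb'] at h2 hy1 h3
  rw [hc'] at h3 h4
  unfold Nat.ModEq at h1 h2 h3 h4
  norm_num at hb ha hc
  have hb2 : b = 2 := by
    interval_cases b <;> first | rfl | (exfalso; revert h2 hy1; decide)
  subst hb2
  have hc2 : c ≤ 2 := by
    have h5 : Nat.card (fix y ⊓ fix x : AddSubgroup (V 3)) ≤ Nat.card (fix y) :=
      AddSubgroup.card_le_of_le inf_le_left
    rw [hc', hb'] at h5
    exact (Nat.pow_le_pow_iff_right (by norm_num)).1 h5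
  have hc3 : c = 2 := by
    interval_cases c <;> first | rfl | (exfalso; revert h3; decide)
  subst hc3
  interval_cases a <;> first | (exfalso; revert h1 h4 hx1; decide)

/-- an element of `Sp_8(2)` commuting with an element of order 17 fixes no nonzero vector -/
theorem free17 {x y : Sp 4} (hx : orderOf x = 17) (h : Commute x y) (hy : y ≠ 1) :
    Nat.card (fix y) = 1 := by
  have f17 : Fact (Nat.Prime 17) := ⟨by norm_num⟩
  have x17 : x ^ 17 = 1 := by rw [← hx]; exact pow_orderOf_eq_one x
  have hx1 := card_fix_lt (ne_one_of_order f17.out hx)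
  have hy1 := card_fix_lt hy
  obtain ⟨a, ha, ha'⟩ := card_two (fix x)
  obtain ⟨b, hb, hb'⟩ := card_two (fix y)
  have h1 := modEq_top x17
  have h3 := modEq x17 (fix y) (fix_inv h)
  norm_num at hb ha
  rw [ha'] at h1 hx1
  rw [hb'] at h3 hy1
  unfold Nat.ModEq at h1 h3
  have ha0 : a = 0 := by
    interval_cases a <;> first | rfl | (exfalso; revert h1 hx1; decide)
  subst ha0
  have h4 : Nat.card (fix y ⊓ fix x : AddSubgroup (V 4)) = 1 := by
    have h5 : Nat.card (fix y ⊓ fix x : AddSubgroup (V 4)) ≤ Nat.card (fix x) :=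
      AddSubgroup.card_le_of_le inf_le_right
    rw [ha'] at h5
    have h6 : 0 < Nat.card (fix y ⊓ fix x : AddSubgroup (V 4)) := Nat.card_pos
    omega
  rw [h4] at h3
  rw [hb']
  interval_cases b <;> first | rfl | (exfalso; revert h3 hy1; decide)

/-- in `Sp_8(2)` no element of order 17 centralizes a subgroup of order 25 -/
theorem no425 {x : Sp 4} (hx : orderOf x = 17) (P : Subgroup (Sp 4)) (hP : Nat.card P = 25)
    (h : ∀ y ∈ P, Commute x y) : False := by
  let _ : MulAction P {v : V 4 // v ≠ 0} :=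
    { smul := fun y v => ⟨act (y : Sp 4) v, fun h0 => v.2 (act_inj (y : Sp 4) _ _
        (h0.trans (act_zero _).symm))⟩
      one_smul := fun v => Subtype.ext (act_one _)
      mul_smul := fun y z v => Subtype.ext (act_mul _ _ _) }
  have hfree : ∀ a : {v : V 4 // v ≠ 0}, MulAction.stabilizer P a = ⊥ := by
    intro a
    rw [eq_bot_iff]
    intro y hy
    rw [MulAction.mem_stabilizer_iff] at hy
    rw [Subgroup.mem_bot]
    by_contra hy1
    have h1 : (y : Sp 4) ≠ 1 := fun h => hy1 (Subtype.ext h)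
    have h2 := free17 hx (h y y.2) h1
    have h3 : (a : V 4) ∈ fix (y : Sp 4) := congrArg Subtype.val hy
    rw [AddSubgroup.card_eq_one.1 h2, AddSubgroup.mem_bot] at h3
    exact a.2 h3
  have h1 := Cfsg.Agent.H541.AutFrattini.card_dvd_of_free hfree
  have h2 : Nat.card {v : V 4 // v ≠ 0} = 255 := by
    rw [Nat.card_eq_fintype_card, Fintype.card_subtype_compl, Fintype.card_subtype_eq,
      ← Nat.card_eq_fintype_card, card_V]
    norm_num
  rw [hP, h2] at h1
  revert h1
  decide

/-! ### `3'`-groups -/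

theorem card_pCore {R : Type*} [Group R] [Finite R] {p : ℕ} (hp : p.Prime) :
    ∃ k, Nat.card (pCore p R) = p ^ k := by
  have : Fact p.Prime := ⟨hp⟩
  exact IsPGroup.iff_card.1 (Cfsg.Agent.Lib.Cores.pCore_isPGroup p)

theorem pCore_eq_bot {R : Type*} [Group R] [Finite R] {p : ℕ} (hp : p.Prime)
    (h : ¬ p ∣ Nat.card R) : pCore p R = ⊥ := by
  obtain ⟨k, hk⟩ := card_pCore (R := R) hp
  rcases Nat.eq_zero_or_pos k with h0 | h0
  · rw [h0, pow_zero] at hk
    exact Subgroup.card_eq_one.1 hk
  · exact (h ((dvd_pow_self p h0.ne').trans (hk ▸ Subgroup.card_subgroup_dvd_card _))).elim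

theorem pCore_two_eq_bot {R : Type} [Group R] (h : PCoreTriv 2 R) : pCore 2 R = ⊥ :=
  h _ (Cfsg.Agent.Lib.Cores.pCore_normal 2) (Cfsg.Agent.Lib.Cores.pCore_isPGroup 2)

/-- the contribution of the prime `p` -/
noncomputable def tt (R : Type*) [Group R] (p : ℕ) : ℕ :=
  Nat.card (pCore p R) * (centralizer (pCore p R : Set R)).index

theorem tt_one {R : Type*} [Group R] [Finite R] {p : ℕ} (h : Nat.card (pCore p R) = 1) :
    tt R p = 1 := by
  unfold tt
  rw [Subgroup.card_eq_one.1 h]
  have : centralizer ((⊥ : Subgroup R) : Set R) = ⊤ := by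
    rw [eq_top_iff, Subgroup.le_centralizer_iff]
    exact bot_le
  rw [this, Subgroup.card_bot, Subgroup.index_top]

theorem index_dvd_prime {R : Type*} [Group R] [Finite R] {p : ℕ} (hp : p.Prime)
    (h : Nat.card (pCore p R) = p) : (centralizer (pCore p R : Set R)).index ∣ p - 1 := by
  have hn : (pCore p R).Normal := Cfsg.Agent.Lib.Cores.pCore_normal p
  have : Fact p.Prime := ⟨hp⟩
  have h1 := index_centralizer_dvd (pCore p R)
  have hc : IsCyclic (pCore p R) := isCyclic_of_prime_card h
  rwa [hc.card_mulAut, h, Nat.totient_prime hp] at h1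

theorem index_dvd_sq {R : Type*} [Group R] [Finite R] {p : ℕ} (hp : p.Prime)
    (h : Nat.card (pCore p R) = p ^ 2) :
    (centralizer (pCore p R : Set R)).index ∣ (p ^ 2 - 1) * (p ^ 2 - p) := by
  have hn : (pCore p R).Normal := Cfsg.Agent.Lib.Cores.pCore_normal p
  have : Fact p.Prime := ⟨hp⟩
  exact (index_centralizer_dvd (pCore p R)).trans
    (Cfsg.Agent.SmallSimple.BurnsideNC.card_mulAut_dvd_of_card_eq_sq h)

theorem tt_prime {R : Type*} [Group R] [Finite R] {p : ℕ} (hp : p.Prime)
    (h : Nat.card (pCore p R) = p) : tt R p ≤ p * (p - 1) := by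
  unfold tt
  rw [h]
  exact Nat.mul_le_mul_left _ (Nat.le_of_dvd (Nat.sub_pos_of_lt hp.one_lt) (index_dvd_prime hp h))

theorem tt_seven {R : Type*} [Group R] [Finite R] (h3 : ¬ 3 ∣ Nat.card R)
    (h : Nat.card (pCore 7 R) = 7) : tt R 7 ≤ 14 := by
  unfold tt
  rw [h]
  have h1 := index_dvd_prime (by norm_num) h
  have h2 : ¬ 3 ∣ (centralizer (pCore 7 R : Set R)).index := fun hd =>
    h3 (hd.trans (Subgroup.index_dvd_card _))
  have h4 : (centralizer (pCore 7 R : Set R)).index ≤ 6 := Nat.le_of_dvd (by norm_num) h1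
  generalize (centralizer (pCore 7 R : Set R)).index = i at h1 h2 h4
  interval_cases i <;> revert h1 h2 <;> decide

theorem tt_five_sq {R : Type*} [Group R] [Finite R] (h3 : ¬ 3 ∣ Nat.card R)
    (h : Nat.card (pCore 5 R) = 25) : tt R 5 ≤ 4000 := by
  unfold tt
  rw [h]
  have h1 := index_dvd_sq (p := 5) (by norm_num) h
  have h2 : ¬ 3 ∣ (centralizer (pCore 5 R : Set R)).index := fun hd =>
    h3 (hd.trans (Subgroup.index_dvd_card _))
  have h5 : (centralizer (pCore 5 R : Set R)).index ∣ 160 := by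
    have h6 : (centralizer (pCore 5 R : Set R)).index ∣ 3 * 160 := by norm_num at h1 ⊢; exact h1
    exact Nat.Coprime.dvd_of_dvd_mul_left
      (((Nat.Prime.coprime_iff_not_dvd Nat.prime_three).2 h2).symm) h6
  have h7 := Nat.le_of_dvd (by norm_num) h5
  omega

theorem exists_mem_of_card {R : Type*} [Group R] [Finite R] {p : ℕ} (hp : p.Prime)
    (N : Subgroup R) (h : p ∣ Nat.card N) : ∃ x ∈ N, orderOf x = p := by
  have : Fact p.Prime := ⟨hp⟩
  obtain ⟨x, hx⟩ := exists_prime_orderOf_dvd_card' p h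
  exact ⟨x, x.2, by rw [Subgroup.orderOf_coe, hx]⟩

theorem commute_cores {R : Type*} [Group R] [Finite R] {p q : ℕ} (hp : p.Prime) (hq : q.Prime)
    (hpq : p ≠ q) {x y : R} (hx : x ∈ pCore p R) (hy : y ∈ pCore q R) : Commute x y := by
  have h1 : (pCore p R).Normal := Cfsg.Agent.Lib.Cores.pCore_normal p
  have h2 : (pCore q R).Normal := Cfsg.Agent.Lib.Cores.pCore_normal q
  obtain ⟨a, ha⟩ := card_pCore (R := R) hp
  obtain ⟨b, hb⟩ := card_pCore (R := R) hq
  have h3 : Disjoint (pCore p R) (pCore q R) := by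
    apply Subgroup.disjoint_of_coprime_natCard
    rw [ha, hb]
    exact Nat.coprime_pow_primes _ _ hp hq hpq
  exact Subgroup.commute_of_normal_of_disjoint _ _ h1 h2 h3 x y hx hy

theorem pow_cases {p k m : ℕ} (_hp : p.Prime) (h : p ^ k ∣ m) {e : ℕ} (he : ¬ p ^ (e + 1) ∣ m) :
    k ≤ e := by
  by_contra hcon
  push Not at hcon
  exact he ((pow_dvd_pow p hcon).trans h)

theorem sp6_three (TB : OrderTable.{0})
    (hS : ∀ (T : Type) [Group T] [Finite T] [IsSimpleGroup T], IsKnownSimple' T)
    (R : Subgroup (Matrix.symplecticGroup (Fin 3) (ZMod 2))) (h : ¬ 3 ∣ Nat.card R)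
    (h2 : PCoreTriv 2 R) : Nat.card (ConjClasses R) ≤ 50 := by
  have f5 : Nat.Prime 5 := by norm_num
  have f7 : Nat.Prime 7 := by norm_num
  have hd : Nat.card R ∣ 17920 := by
    have h1 : Nat.card R ∣ 3 ^ 4 * 17920 := by
      have := Subgroup.card_subgroup_dvd_card R
      rw [card3] at this
      exact this
    exact Nat.Coprime.dvd_of_dvd_mul_left
      (Nat.Coprime.pow_right 4 (((Nat.Prime.coprime_iff_not_dvd Nat.prime_three).2 h).symm)) h1
  have hs : Group.IsSolvable R :=
    solvable_of_table TB hS (l := [(2, 9), (5, 1), (7, 1)]) (N := 17920) (by decide +kernel)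
      (by decide +kernel) R hd
  have hcard := card_le_cores (R := R) {5, 7} (by
    intro p hp hpS
    by_cases hp2 : p = 2
    · subst hp2; exact pCore_two_eq_bot h2
    · refine pCore_eq_bot hp fun hdp => ?_
      have h1 : p ∣ 2 ^ 9 * (5 * 7) := hdp.trans (hd.trans (by norm_num))
      rcases (Nat.Prime.dvd_mul hp).1 h1 with h3 | h3
      · exact hp2 ((Nat.prime_dvd_prime_iff_eq hp Nat.prime_two).1 (hp.dvd_of_dvd_pow h3))
      · rcases (Nat.Prime.dvd_mul hp).1 h3 with h3 | h3
        · have := (Nat.prime_dvd_prime_iff_eq hp f5).1 h3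
          subst this; simp at hpS
        · have := (Nat.prime_dvd_prime_iff_eq hp f7).1 h3
          subst this; simp at hpS)
  rw [Finset.prod_insert (by decide), Finset.prod_singleton] at hcard
  change _ ≤ tt R 5 * tt R 7 at hcard
  obtain ⟨a, ha⟩ := card_pCore (R := R) f5
  obtain ⟨b, hb⟩ := card_pCore (R := R) f7
  have ha1 : a ≤ 1 := pow_cases f5 (e := 1) (m := 17920)
    ((ha ▸ Subgroup.card_subgroup_dvd_card _).trans hd) (by norm_num)
  have hb1 : b ≤ 1 := pow_cases f7 (e := 1) (m := 17920)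
    ((hb ▸ Subgroup.card_subgroup_dvd_card _).trans hd) (by norm_num)
  refine card_conjClasses_le_card.trans (hcard.trans ?_)
  interval_cases a <;> interval_cases b
  · rw [tt_one (by rw [ha]; norm_num), tt_one (by rw [hb]; norm_num)]; norm_num
  · rw [tt_one (by rw [ha]; norm_num), one_mul]
    exact (tt_seven h (by rw [hb]; norm_num)).trans (by norm_num)
  · rw [tt_one (p := 7) (by rw [hb]; norm_num), mul_one]
    exact (tt_prime f5 (by rw [ha]; norm_num)).trans (by norm_num)
  · exfalso
    obtain ⟨x, hx, hx7⟩ := exists_mem_of_card f7 (pCore 7 R) (by rw [hb]; norm_num)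
    obtain ⟨y, hy, hy5⟩ := exists_mem_of_card f5 (pCore 5 R) (by rw [ha]; norm_num)
    have hc := commute_cores f7 f5 (by norm_num) hx hy
    refine no35 (x := (x : Sp 3)) (y := (y : Sp 3)) (by rw [Subgroup.orderOf_coe, hx7])
      (by rw [Subgroup.orderOf_coe, hy5]) ?_
    exact hc.map R.subtype

theorem sp8_three (TB : OrderTable.{0})
    (hS : ∀ (T : Type) [Group T] [Finite T] [IsSimpleGroup T], IsKnownSimple' T)
    (R : Subgroup (Matrix.symplecticGroup (Fin 4) (ZMod 2))) (h : ¬ 3 ∣ Nat.card R)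
    (h2 : PCoreTriv 2 R) : Nat.card (ConjClasses R) ≤ 83749 := by
  have f5 : Nat.Prime 5 := by norm_num
  have f7 : Nat.Prime 7 := by norm_num
  have f17 : Nat.Prime 17 := by norm_num
  have hd : Nat.card R ∣ 194969600 := by
    have h1 : Nat.card R ∣ 3 ^ 5 * 194969600 := by
      have := Subgroup.card_subgroup_dvd_card R
      rw [card4] at this
      exact this
    exact Nat.Coprime.dvd_of_dvd_mul_left
      (Nat.Coprime.pow_right 5 (((Nat.Prime.coprime_iff_not_dvd Nat.prime_three).2 h).symm)) h1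
  have hs : Group.IsSolvable R :=
    solvable_of_table TB hS (l := [(2, 16), (5, 2), (7, 1), (17, 1)]) (N := 194969600)
      (by decide +kernel) (by decide +kernel) R hd
  have hcard := card_le_cores (R := R) {5, 7, 17} (by
    intro p hp hpS
    by_cases hp2 : p = 2
    · subst hp2; exact pCore_two_eq_bot h2
    · refine pCore_eq_bot hp fun hdp => ?_
      have h1 : p ∣ 2 ^ 16 * (5 ^ 2 * (7 * 17)) := hdp.trans (hd.trans (by norm_num))
      rcases (Nat.Prime.dvd_mul hp).1 h1 with h3 | h3
      · exact hp2 ((Nat.prime_dvd_prime_iff_eq hp Nat.prime_two).1 (hp.dvd_of_dvd_pow h3))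
      · rcases (Nat.Prime.dvd_mul hp).1 h3 with h3 | h3
        · have := (Nat.prime_dvd_prime_iff_eq hp f5).1 (hp.dvd_of_dvd_pow h3)
          subst this; simp at hpS
        · rcases (Nat.Prime.dvd_mul hp).1 h3 with h3 | h3
          · have := (Nat.prime_dvd_prime_iff_eq hp f7).1 h3
            subst this; simp at hpS
          · have := (Nat.prime_dvd_prime_iff_eq hp f17).1 h3
            subst this; simp at hpS)
  rw [Finset.prod_insert (by decide), Finset.prod_insert (by decide), Finset.prod_singleton] at hcard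
  change _ ≤ tt R 5 * (tt R 7 * tt R 17) at hcard
  obtain ⟨a, ha⟩ := card_pCore (R := R) f5
  obtain ⟨b, hb⟩ := card_pCore (R := R) f7
  obtain ⟨c, hc⟩ := card_pCore (R := R) f17
  have ha1 : a ≤ 2 := pow_cases f5 (e := 2) (m := 194969600)
    ((ha ▸ Subgroup.card_subgroup_dvd_card _).trans hd) (by norm_num)
  have hb1 : b ≤ 1 := pow_cases f7 (e := 1) (m := 194969600)
    ((hb ▸ Subgroup.card_subgroup_dvd_card _).trans hd) (by norm_num)
  have hc1 : c ≤ 1 := pow_cases f17 (e := 1) (m := 194969600)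
    ((hc ▸ Subgroup.card_subgroup_dvd_card _).trans hd) (by norm_num)
  refine card_conjClasses_le_card.trans (hcard.trans ?_)
  have t7 : tt R 7 ≤ 14 := by
    interval_cases b
    · rw [tt_one (by rw [hb]; norm_num)]; norm_num
    · exact tt_seven h (by rw [hb]; norm_num)
  rcases Nat.lt_or_ge c 1 with hc0 | hc0
  · have hc0' : c = 0 := by omega
    subst hc0'
    rw [tt_one (p := 17) (by rw [hc]; norm_num), mul_one]
    have t5 : tt R 5 ≤ 4000 := by
      interval_cases a
      · rw [tt_one (by rw [ha]; norm_num)]; norm_num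
      · exact (tt_prime f5 (by rw [ha]; norm_num)).trans (by norm_num)
      · exact tt_five_sq h (by rw [ha]; norm_num)
    exact (Nat.mul_le_mul t5 t7).trans (by norm_num)
  · have hc0' : c = 1 := by omega
    subst hc0'
    have t17 : tt R 17 ≤ 272 := (tt_prime f17 (by rw [hc]; norm_num)).trans (by norm_num)
    have t5 : tt R 5 ≤ 20 := by
      interval_cases a
      · rw [tt_one (by rw [ha]; norm_num)]; norm_num
      · exact (tt_prime f5 (by rw [ha]; norm_num)).trans (by norm_num)
      · exfalso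
        obtain ⟨x, hx, hx17⟩ := exists_mem_of_card f17 (pCore 17 R) (by rw [hc]; norm_num)
        refine no425 (x := (x : Sp 4)) (by rw [Subgroup.orderOf_coe, hx17])
          ((pCore 5 R).map R.subtype) ?_ ?_
        · rw [Subgroup.card_map_of_injective R.subtype_injective, ha]; norm_num
        · rintro _ ⟨y, hy, rfl⟩
          exact (commute_cores f17 f5 (by norm_num) hx hy).map R.subtype
    exact (Nat.mul_le_mul t5 (Nat.mul_le_mul t7 t17)).trans (by norm_num)

end Cfsg.Agent.H192.KSp
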