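import Cfsg.Agent.H436.Names
import Cfsg.Agent.H915.GNDefs
import Cfsg.Agent.H912.BdOrth
import Cfsg.Agent.H175.BdSL
import Cfsg.Agent.H175.BdSU
import Cfsg.Agent.H175.BdSp
import Cfsg.Agent.H203.BdSL2

/-!
# Degree bounds in cross characteristic for the classical groups, by name (helper192)

`lbc g` : the lower bound; `lbc_le` : `PR F n r T`, `T` the classical group named `g` in characteristic `r ≠ char F`
⟹ `lbc g ≤ n`.
-/

set_option autoImplicit false

namespace Cfsg.Agent.H192.Singer

open Cfsg Cfsg.Agent.OrdDiv Cfsg.Agent.H436 Cfsg.Agent.H915.GN Cfsg.Agent.H912.Bd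

universe u v

/-- lower bounds for the classical groups -/
def lbc : Grp → ℕ
  | .psl m s => if m = 2 then (s - 1) / 2 else s ^ (m - 1) - 1
  | .psp m s => if s % 2 = 1 then (s ^ m - 1) / 2 else s ^ m - 1
  | .psu m s => (s - 1) * s ^ (m - 2)
  | .oodd m s => max (s ^ 3 - 1) (s ^ (m - 1) - 1)
  | .oplus m s => max (s ^ 3 - 1) (s ^ (m - 1) - 1)
  | .ominus m s => max (s ^ 3 - 1) (s ^ (m - 2) - 1)
  | _ => 0

/-- **Degree bounds for the classical groups in cross characteristic.** -/
theorem lbc_le {F : Type u} [Field F] {n r : ℕ} {T : Type v} [Group T] {g : Grp} (hreal : Real g T) (hcond : Cond g)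
    (hr : r.Prime) (hrF : (r : F) ≠ 0) (hch : HasChar r g) (h : PR F n r T) : lbc g ≤ n := by
  have := Fact.mk hr
  cases g with
  | psl m q =>
    obtain ⟨f, rfl⟩ := hch
    obtain ⟨K, _, _, hK, ⟨e⟩⟩ := hreal
    have : CharP K r := charP_of_card_eq_prime_pow hK
    show (if m = 2 then (r ^ f - 1) / 2 else (r ^ f) ^ (m - 1) - 1) ≤ n
    split_ifs with h2
    · subst h2
      have h1 : (r ^ f - 1) / Nat.gcd 2 (r ^ f - 1) ≤ n := by
        refine H203.BdSL2.bd_of_sl2 hr hK hrF (e.symm.toMonoidHom.comp (QuotientGroup.mk' _)) ?_ n h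
        intro x hx
        have h1 : e.symm (QuotientGroup.mk' _ x) = 1 := hx
        rw [MulEquiv.map_eq_one_iff, QuotientGroup.mk'_apply, QuotientGroup.eq_one_iff] at h1
        exact h1
      refine le_trans (Nat.div_le_div_left (Nat.gcd_le_left _ (by norm_num)) ?_) h1
      exact Nat.gcd_pos_of_pos_left _ (by norm_num)
    · exact H175.BdSL.bd_psl hr hK (by have := hcond.1; omega) hrF e n h
  | psp m q =>
    obtain ⟨f, rfl⟩ := hch
    obtain ⟨K, _, _, hK, ⟨e⟩⟩ := hreal
    have : CharP K r := charP_of_card_eq_prime_pow hK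
    have hm : 1 ≤ m := by have := hcond.1; omega
    show (if (r ^ f) % 2 = 1 then ((r ^ f) ^ m - 1) / 2 else (r ^ f) ^ m - 1) ≤ n
    split_ifs with h2
    · exact H175.BdSp.bd_psp hr hK hm hrF e n h
    · have hr2 : r = 2 := by
        rcases hr.eq_two_or_odd with h3 | h3
        · exact h3
        · exfalso
          apply h2
          rw [Nat.pow_mod, h3, one_pow]
          norm_num
      subst hr2
      exact H175.BdSp.bd_psp_even hK hm (by exact_mod_cast hrF) e n h
  | psu m q =>
    obtain ⟨f, rfl⟩ := hch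
    obtain ⟨K, _, _, hK, ⟨e⟩⟩ := hreal
    have : CharP K r := charP_of_card_eq_prime_pow (f := f * 2) (by rw [hK, pow_mul])
    exact H175.BdSU.bd_psu hr hK hcond.1 hrF e n h
  | oodd m q =>
    obtain ⟨f, rfl⟩ := hch
    obtain ⟨K, _, _, hK, ⟨e⟩⟩ := hreal
    have hKr : CharP K r := charP_of_card_eq_prime_pow hK
    have h1 := (bd_pomega_odd_cube (F := F) hr hrF hKr hcond.1).congr e n h
    have h2 := (bd_pomega_odd_sl (F := F) hr hrF hKr hcond.1).congr e n h
    rw [hK] at h1 h2
    exact max_le h1 h2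
  | oplus m q =>
    obtain ⟨f, rfl⟩ := hch
    obtain ⟨K, _, _, hK, ⟨e⟩⟩ := hreal
    have hKr : CharP K r := charP_of_card_eq_prime_pow hK
    have hm : 3 ≤ m := by have := hcond.1; omega
    have h1 := (bd_pomega_plus_cube (F := F) hr hrF hKr hm).congr e n h
    have h2 := (bd_pomega_plus_sl (F := F) hr hrF hKr hm).congr e n h
    rw [hK] at h1 h2
    exact max_le h1 h2
  | ominus m q =>
    obtain ⟨f, rfl⟩ := hch
    obtain ⟨K, _, _, a, b, hK, hab, ⟨e⟩⟩ := hreal
    have hKr : CharP K r := charP_of_card_eq_prime_pow hK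
    have hm : 3 ≤ m - 1 := by have := hcond.1; omega
    have h1 := (bd_pomega_minus_cube (F := F) hr hrF hKr hm a b).congr e n h
    have h2 := (bd_pomega_minus_sl (F := F) hr hrF hKr hm a b).congr e n h
    rw [hK] at h1 h2
    exact max_le h1 (by rwa [show m - 1 - 1 = m - 2 by omega] at h2)
  | _ => exact Nat.zero_le _

end Cfsg.Agent.H192.Singer
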